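import Cfsg.Agent.H169.DP.NodeE6

/-!
# The nodes of `²E₆(q)` as products of `p`-elements: the cases (S2454; helper169 for helper346)
-/

set_option autoImplicit false
set_option linter.unusedSectionVars false
set_option maxHeartbeats 400000

namespace Cfsg.Agent.H169.DP.TwE6

open CoxeterSystem Cfsg.Agent.ChevalleyStructure.CoxeterGeom Cfsg.Agent.Tits.Roots Cfsg.Agent.Tits.Core
  Cfsg.Agent.Tits.RootComb Cfsg.Agent.Nodes.Comb Cfsg.Agent.Nodes.Reps Cfsg.Agent.Nodes.BNOf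
  Cfsg.Agent.Nodes.StabComb Cfsg.Agent.Nodes.OppDec Cfsg.Agent.Nodes.LeviDec
  Cfsg.Agent.Nodes.RGDTwGen Cfsg.Agent.Nodes.RGDChev Cfsg.Agent.Nodes.RGDFold
  Cfsg.Agent.Nodes.RGDFoldSL Cfsg.Agent.Nodes.RGDTwE6 Cfsg.Agent.Nodes.RGDTwTab Cfsg.Agent.Nodes.RGDTwCoordE6
  Cfsg.Agent.Nodes.RGDTwCoord Cfsg.Agent.Nodes.RGDTwComE6 Cfsg.Agent.Nodes.RGDTwActE6
  Cfsg.Agent.Nodes.RGDLib Cfsg.Agent.Nodes.SubComb Cfsg.Agent.Nodes.Sub Cfsg.Agent.Nodes.Bruhat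
open Cfsg.Lie Cfsg.Agent.ChevalleyStructure
  Cfsg.Agent.ChevalleyStructure.TwistedU Cfsg.Agent.ChevalleyStructure.TwistedFix
open Cfsg.Agent.OddHalf.NI.Mult (up lo dg Coord)
open Cfsg.Agent.Nodes.RGDTwNode.E6 (nodeOK eps_one rest)
open Cfsg.Agent.UGT.U2.FOne.TwESix (P hf coordP P_hS_mem range_P P_wS comm_T)
open Cfsg.Agent.H175.DP (dc)
open Cfsg.Agent.H346.DP
open Cfsg.Agent.H514.DP (PE IsPE)
open Cfsg.Agent.H53.HC (MJ)
open Cfsg.Agent.H35.ExcIdx (fE card_X_tw)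

universe u

/-- the Coxeter system of type `F₄` -/
local notation "c4" => CoxeterMatrix.toCoxeterSystem CoxeterMatrix.F₄

/-- the representatives of the classes of the nodes -/
local notation "rp6" => Cfsg.Agent.Nodes.RGDTwNode.E6.rep

variable {K : Type u} [Field K] [Fintype K] {q : ℕ} {φ : K →+* K} (hφ : ∀ x, φ x = x ^ q)
  (hqq : ∀ t : K, (t ^ q) ^ q = t) {r : ℕ} [Fact r.Prime] [CharP K r] {p : ℕ}

include hφ hqq

theorem adj4 {i j : Fin 4} (hij : CoxeterMatrix.F₄ i j = 3) {m : ℕ} (h : NodeP (X φ q) p m i) :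
    NodeP (X φ q) p m j := by
  obtain ⟨r, hr'⟩ := CharP.exists K
  have : Fact r.Prime := ⟨CharP.char_is_prime K r⟩
  have := finW
  exact NodeP.adj (rgd c4 hφ hqq r) hij h

omit hφ hqq in
/-- primes dividing `q` -/
theorem eq_char (hK : Fintype.card K = q ^ 2) (hp : p.Prime) (hd : p ∣ q) : p = r := by
  obtain ⟨n, hr, hn⟩ := FiniteField.card K r
  rw [hK] at hn
  have h1 : p ∣ r ^ (n : ℕ) := by
    rw [← hn, sq]
    exact Dvd.dvd.mul_right hd _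
  exact (Nat.prime_dvd_prime_iff_eq hp hr).1 (hp.dvd_of_dvd_pow h1)

theorem shortA (hq : 1 < q) (hK : Fintype.card K = q ^ 2) (hp : p.Prime) (hd : p ∣ q ^ 2 - 1) :
    NodeP (X φ q) p 2 2 := by
  refine nodeP_tor hφ hqq (j := 3) wt32 hp ?_
  rw [card_Fn hφ hqq hq hK]
  exact hd

theorem longA (hq : 1 < q) (hK : Fintype.card K = q ^ 2) (hp : p.Prime) (hd : p ∣ q - 1) :
    NodeP (X φ q) p 2 1 := by
  refine nodeP_tor hφ hqq (j := 0) wt01 hp ?_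
  rw [card_Fn hφ hqq hq hK]
  exact hd

theorem longA' (hq : 1 < q) (hK : Fintype.card K = q ^ 2) (hp : p.Prime) (hpr : p ≠ r) (hd : ¬ p ∣ q - 1)
    (hd' : p ∣ q ^ 2 - 1) : NodeP (X φ q) p 4 1 := by
  have := finW
  have R := rgd c4 hφ hqq r
  have C := coordP hφ hqq
  have hc : Nat.card (Fn φ 1) = q := card_Fn hφ hqq hq hK 1
  have hp2 : p ≠ 2 := by
    rintro rfl
    have h1 : ¬ 2 ∣ q := fun h => hpr (eq_char (K := K) hK hp h)
    exact hd (by omega)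
  have hqp : p ∣ q + 1 := by
    have h1 : q ^ 2 - 1 = (q + 1) * (q - 1) := by
      have := Nat.sq_sub_sq q 1
      rwa [one_pow] at this
    rw [h1] at hd'
    exact ((Nat.Prime.dvd_mul hp).1 hd').resolve_right hd
  by_cases h4 : 4 ≤ q
  · have hdvd : p ∣ Nat.card (MJ c4 isCartan (X φ q) {1}) := by
      refine dvd_MJ_singleton R C hp hp2 ?_
      rw [hc]
      exact Dvd.dvd.mul_left hd' _
    refine lev_sq hφ hqq (levMin_singleton hp hdvd) ?_ hp hpr ?_ rfl (by rw [hc]; exact h4)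
    · refine perf4 hφ hqq hq hK (fun h => ?_) (fun _ => Or.inr (Or.inr h4))
      exact Or.inr h4
    · exact not_dvd_T_singleton R C hp (by rw [hc]; exact hd)
  · have h23 : q = 2 ∨ q = 3 := by omega
    rcases h23 with h2 | h3
    · have hp3 : p = 3 := by
        rw [h2] at hqp
        exact (Nat.prime_dvd_prime_iff_eq hp Nat.prime_three).1 hqp
      subst hp3
      exact (nodeP_three (R := R) C (i := 1) (j := 0) rfl (by rw [hc]; exact h2)).mono (by norm_num)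
    · exfalso
      rw [h3] at hqp
      have h5 : p ∣ 2 ^ 2 := hqp
      exact hp2 ((Nat.prime_dvd_prime_iff_eq hp Nat.prime_two).1 (hp.dvd_of_dvd_pow h5))

/-! ### `p` does not divide `q² - 1` -/

omit hφ hqq in
theorem pow_four (hq : 1 < q) : q ^ 4 - 1 = (q ^ 2 + 1) * (q ^ 2 - 1) := by
  have := Nat.sq_sub_sq (q ^ 2) 1
  rw [one_pow, ← pow_mul] at this
  exact this

theorem not_dvd_MJ_long (hq : 1 < q) (hK : Fintype.card K = q ^ 2) (hp : p.Prime) (hpr : p ≠ r)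
    (hd : ¬ p ∣ q ^ 2 - 1) {i : Fin 4} (hi : (i : ℕ) < 2) : ¬ p ∣ Nat.card (MJ c4 isCartan (X φ q) {i}) := by
  have := finW
  have hc : Nat.card (Fn φ i) = q := by rw [card_Fn hφ hqq hq hK, fE, if_pos hi]
  refine not_dvd_MJ_singleton (coordP hφ hqq) fun h1 => ?_
  rw [hc] at h1
  rcases (Nat.Prime.dvd_mul hp).1 h1 with h2 | h2
  · exact hpr (eq_char (K := K) hK hp h2)
  · exact hd h2

theorem not_dvd_MJ_short (hq : 1 < q) (hK : Fintype.card K = q ^ 2) (hp : p.Prime) (hpr : p ≠ r)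
    (hd : ¬ p ∣ q ^ 2 - 1) (hd' : ¬ p ∣ q ^ 2 + 1) {i : Fin 4} (hi : ¬ (i : ℕ) < 2) :
    ¬ p ∣ Nat.card (MJ c4 isCartan (X φ q) {i}) := by
  have := finW
  have hc : Nat.card (Fn φ i) = q ^ 2 := by rw [card_Fn hφ hqq hq hK, fE, if_neg hi]
  refine not_dvd_MJ_singleton (coordP hφ hqq) fun h1 => ?_
  rw [hc, ← pow_mul, pow_four hq] at h1
  rcases (Nat.Prime.dvd_mul hp).1 h1 with h2 | h2
  · exact hpr (eq_char (K := K) hK hp (hp.dvd_of_dvd_pow h2))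
  · rcases (Nat.Prime.dvd_mul hp).1 h2 with h3 | h3
    · exact hd' h3
    · exact hd h3

/-- a Levi subgroup has order prime to `p` for its torus -/
theorem hpT4 (hq : 1 < q) (hK : Fintype.card K = q ^ 2) (hp : p.Prime) (hd : ¬ p ∣ q ^ 2 - 1) (J : Set (Fin 4)) :
    ¬ p ∣ Nat.card ↥((T K q).subgroupOf (MJ c4 isCartan (X φ q) J)) := fun h1 =>
  not_dvd_T4 hφ hqq hq hK hp hd (h1.trans (Subgroup.card_comap_dvd_of_injective (T K q) _
    (MJ c4 isCartan (X φ q) J).subtype_injective))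

/-- the short nodes -/
theorem short_of {J : Set (Fin 4)} (L : LevMin c4 isCartan (X φ q) J p) (hq : 1 < q) (hK : Fintype.card K = q ^ 2)
    (hp : p.Prime) (hpr : p ≠ r) (hd : ¬ p ∣ q ^ 2 - 1) (h0 : 0 ∈ J → 1 ∈ J) (h2 : 2 ∈ J) : NodeP (X φ q) p 4 2 := by
  have hc : Nat.card (Fn φ 2) = q ^ 2 := card_Fn hφ hqq hq hK 2
  refine lev_sq hφ hqq L ?_ hp hpr (hpT4 hφ hqq hq hK hp hd J) h2 (by rw [hc]; nlinarith)
  exact perf4 hφ hqq hq hK (fun h => Or.inl (h0 h)) (fun _ => Or.inr (Or.inl h2))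

/-- the long nodes, `q ≥ 3`, `1, 2 ∈ J` -/
theorem long_of {J : Set (Fin 4)} (L : LevMin c4 isCartan (X φ q) J p) (hq : 3 ≤ q) (hK : Fintype.card K = q ^ 2)
    (hp : p.Prime) (hpr : p ≠ r) (hd : ¬ p ∣ q ^ 2 - 1) (h1 : 1 ∈ J) (h2 : 2 ∈ J) : NodeP (X φ q) p 4 1 := by
  obtain ⟨u, hu⟩ := exists_norm hφ hqq hq hK
  refine lev_node hφ hqq L ?_ hp hpr (hpT4 hφ hqq (by omega) hK hp hd J) h1 h2 u ?_
  · exact perf4 hφ hqq (by omega) hK (fun h => Or.inl h1) (fun _ => Or.inr (Or.inl h2))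
  · rw [wt21, ← mul_inv]
    exact fun h => hu (inv_eq_one.1 h)

/-- the long nodes, `q ≥ 3`, `0, 1 ∈ J` -/
theorem long_of' {J : Set (Fin 4)} (L : LevMin c4 isCartan (X φ q) J p) (hq : 3 ≤ q) (hK : Fintype.card K = q ^ 2)
    (hp : p.Prime) (hpr : p ≠ r) (hd : ¬ p ∣ q ^ 2 - 1) (h0 : 0 ∈ J) (h1 : 1 ∈ J) : NodeP (X φ q) p 4 1 := by
  have hc : Nat.card (Fn φ 0) = q := card_Fn hφ hqq (by omega) hK 0
  obtain ⟨u, hu⟩ : ∃ u : (Fn φ 0)ˣ, u ≠ 1 := by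
    by_contra hcon
    push Not at hcon
    have : Subsingleton (Fn φ 0)ˣ := ⟨fun a b => by rw [hcon a, hcon b]⟩
    have h3 : Nat.card (Fn φ 0)ˣ ≤ 1 := Finite.card_le_one_iff_subsingleton.2 this
    rw [Nat.card_units, hc] at h3
    omega
  refine lev_node hφ hqq L ?_ hp hpr (hpT4 hφ hqq (by omega) hK hp hd J) h1 h0 u ?_
  · exact perf4 hφ hqq (by omega) hK (fun h => Or.inl h1) (fun _ => Or.inl h0)
  · rw [wt01]
    intro h
    apply hu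
    exact Units.ext (Subtype.ext (inv_eq_one.1 h))

/-- the long nodes, `q = 2`, `0, 1 ∈ J` -/
theorem long_of_two {J : Set (Fin 4)} (L : LevMin c4 isCartan (X φ q) J p) (hq : q = 2) (hK : Fintype.card K = q ^ 2)
    (hp : p.Prime) (hpr : p ≠ r) (hd : ¬ p ∣ q ^ 2 - 1) (h0 : 0 ∈ J) (h1 : 1 ∈ J) : NodeP (X φ q) p 4 1 := by
  have := finW
  have R := rgd c4 hφ hqq r
  have hc : Nat.card (Fn φ 1) = q := card_Fn hφ hqq (by omega) hK 1
  obtain ⟨Fl, hF⟩ := exists_filt hφ hqq (r := r)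
  refine LevMin.nodeP_two (hT4 hφ hqq) (hn4 hφ hqq) hF (coordP hφ hqq) L ?_ hp hpr
    (not_dvd_T4 hφ hqq (by omega) hK hp hd) h1 h0 rfl (by rw [hc]; exact hq) ?_
  · exact perf4 hφ hqq (by omega) hK (fun h => Or.inl h1) (fun _ => Or.inl h0)
  · have h3 := eq_char (K := K) (r := r) hK Nat.prime_two (by rw [hq])
    omega

omit hφ hqq [Fact r.Prime] [CharP K r] [Fintype K] in
theorem coe_sq {k : ℕ} {u : (Fx φ k)ˣ} (h : u ^ 2 = 1) : (((u : Fx φ k) : K)) ^ 2 = 1 := by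
  have h1 : ((u : Fx φ k)) ^ 2 = 1 := by
    rw [← Units.val_pow_eq_pow_val, h, Units.val_one]
  rw [← SubmonoidClass.coe_pow, h1]
  rfl

omit hφ hqq [Fact r.Prime] [CharP K r] [Fintype K] in
theorem norm_of_sq {e : K} (h : e ^ 2 = 1) : e * φ e = 1 := by
  have h4 : (e - 1) * (e + 1) = 0 := by linear_combination h
  rcases mul_eq_zero.1 h4 with h5 | h5
  · rw [sub_eq_zero.1 h5, map_one, mul_one]
  · rw [eq_neg_of_add_eq_zero_left h5, map_neg, map_one, neg_mul_neg, mul_one]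

omit hφ hqq [Fact r.Prime] [CharP K r] [Fintype K] in
theorem coe_mul' {k : ℕ} (u e : (Fx φ k)ˣ) :
    ((((u * e : (Fx φ k)ˣ)) : Fx φ k) : K) = ((u : Fx φ k) : K) * ((e : Fx φ k) : K) := by
  rw [Units.val_mul]
  rfl

theorem dg_mul_dg (i : Fin 4) (u e : (Fn φ i)ˣ) :
    P hφ hqq i (dg u) * P hφ hqq i (dg e) = P hφ hqq i (dg (u * e)) := by
  rw [← map_mul]
  congr 1
  exact (map_mul OddHalf.NI.Mult.dgHom u e).symm

theorem sq_act (i : Fin 4) (u : (Fn φ i)ˣ) (g : Matrix.SpecialLinearGroup (Fin 2) (Fn φ i)) :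
    P hφ hqq i (dg u) * P hφ hqq i g * (P hφ hqq i (dg u))⁻¹ = P hφ hqq i (dc (u ^ 2) g) := by
  rw [← map_inv, ← map_mul, ← map_mul, dg_conj]

/-- the long nodes, `q ≥ 3`, `p ∣ q² + 1` -/
theorem longB (L : LevMin c4 isCartan (X φ q) {2} p) (hq : 3 ≤ q) (hK : Fintype.card K = q ^ 2)
    (hp : p.Prime) (hpr : p ≠ r) (hd : ¬ p ∣ q ^ 2 - 1) : NodeP (X φ q) p 4 1 := by
  have := finW
  have R := rgd c4 hφ hqq r
  have C := coordP hφ hqq
  have hφφ : ∀ t : K, φ (φ t) = t := phi_phi hφ hqq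
  obtain ⟨Fl, hF⟩ := exists_filt hφ hqq (r := r)
  obtain ⟨u, hu⟩ := exists_norm hφ hqq hq hK
  have hu2 : u ^ 2 ≠ 1 := fun h => hu (norm_of_sq (coe_sq h))
  have hmem : P hφ hqq 2 (dg u) ∈ MJ c4 isCartan (X φ q) {2} := KK_le_MJ (Set.mem_singleton 2) (mem_KK C 2 _)
  obtain ⟨g, hg⟩ := act_noncentral R C (i := 2) (z := P hφ hqq 2 (dg u)) (μ := u ^ 2) hu2 (sq_act hφ hqq 2 u)
  have hmg : P hφ hqq 2 g ∈ MJ c4 isCartan (X φ q) {2} := KK_le_MJ (Set.mem_singleton 2) (mem_KK C 2 g)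
  obtain ⟨ζ, hζ, hζc, hPE⟩ := levi_gow R (hT4 hφ hqq) (hn4 hφ hqq) hF {2} L.ne L.conn
    (perf4 hφ hqq (by omega) hK (fun h => by simp at h) (fun h => by simp at h)) hp hpr L.dvd L.min
    (not_dvd_T4 hφ hqq (by omega) hK hp hd) hmem (not_dvd_orderOf hφ hqq Fact.out 2 u) ⟨_, hmg, hg⟩
  obtain ⟨e, he, rfl⟩ := central_MJ_singleton R C hζ hζc
  rw [dg_mul_dg hφ hqq] at hPE
  obtain ⟨c, hc⟩ := exists_scalar hφ hqq 1 (u * e)
  refine NodeP.of_act C (i := 1) (μ := c) (m := 2) ?_ (act_P hφ hqq (u * e) hc) hPE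
  intro hc1
  rw [wt21, hc1, ← mul_inv] at hc
  have h4 := inv_eq_one.1 hc.symm
  rw [coe_mul', map_mul] at h4
  have h3 := norm_of_sq (φ := φ) (coe_sq he)
  apply hu
  linear_combination h4 - ((u : Fn φ 2) : K) * φ ((u : Fn φ 2) : K) * h3

/-! ### The minimal sets -/

theorem levB (hq : 1 < q) (hK : Fintype.card K = q ^ 2) (hp : p.Prime) (hpr : p ≠ r) (hd : ¬ p ∣ q ^ 2 - 1)
    (hB : p ∣ q ^ 2 + 1) : LevMin c4 isCartan (X φ q) {2} p := by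
  have := finW
  have R := rgd c4 hφ hqq r
  have hc : Nat.card (Fn φ 2) = q ^ 2 := card_Fn hφ hqq hq hK 2
  have hp2 : p ≠ 2 := by
    rintro rfl
    have h1 : ¬ 2 ∣ q := fun h => hpr (eq_char (K := K) hK hp h)
    have h2 : ¬ 2 ∣ q ^ 2 := fun h => h1 (hp.dvd_of_dvd_pow h)
    omega
  refine levMin_singleton hp (dvd_MJ_singleton R (coordP hφ hqq) hp hp2 ?_)
  rw [hc, ← pow_mul, pow_four hq]
  exact Dvd.dvd.mul_left (Dvd.dvd.mul_right hB _) _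

theorem levC (hq : 1 < q) (hK : Fintype.card K = q ^ 2) (hp : p.Prime) (hpr : p ≠ r) (hd : ¬ p ∣ q ^ 2 - 1)
    (hC : p ∣ q ^ 2 + q + 1) : LevMin c4 isCartan (X φ q) {0, 1} p := by
  have := finW
  have R := rgd c4 hφ hqq r
  refine levMin_pair (by decide) hp (dvd_MJ_of R (card01 hφ hqq hq hK) hp hpr (not_dvd_T4 hφ hqq hq hK hp hd) ?_)
    (not_dvd_MJ_long hφ hqq hq hK hp hpr hd (by decide)) (not_dvd_MJ_long hφ hqq hq hK hp hpr hd (by decide))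
  refine Dvd.dvd.mul_left ?_ _
  have : 1 + q + q ^ 2 = q ^ 2 + q + 1 := by ring
  rw [this]
  exact hC

theorem levC' (hq : 1 < q) (hK : Fintype.card K = q ^ 2) (hp : p.Prime) (hpr : p ≠ r) (hd : ¬ p ∣ q ^ 2 - 1)
    (hB : ¬ p ∣ q ^ 2 + 1) (hC : p ∣ q ^ 4 + q ^ 2 + 1) : LevMin c4 isCartan (X φ q) {2, 3} p := by
  have := finW
  have R := rgd c4 hφ hqq r
  refine levMin_pair (by decide) hp (dvd_MJ_of R (card23 hφ hqq hq hK) hp hpr (not_dvd_T4 hφ hqq hq hK hp hd) ?_)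
    (not_dvd_MJ_short hφ hqq hq hK hp hpr hd hB (by decide)) (not_dvd_MJ_short hφ hqq hq hK hp hpr hd hB (by decide))
  refine Dvd.dvd.mul_left ?_ _
  have : 1 + q ^ 2 + q ^ 4 = q ^ 4 + q ^ 2 + 1 := by ring
  rw [this]
  exact hC

theorem levD (hq : 1 < q) (hK : Fintype.card K = q ^ 2) (hp : p.Prime) (hpr : p ≠ r) (hd : ¬ p ∣ q ^ 2 - 1)
    (hB : ¬ p ∣ q ^ 2 + 1) (hD : p ∣ q ^ 3 + 1) : LevMin c4 isCartan (X φ q) {1, 2} p := by
  have := finW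
  have R := rgd c4 hφ hqq r
  refine levMin_pair (by decide) hp (dvd_MJ_of R (card12 hφ hqq hq hK) hp hpr (not_dvd_T4 hφ hqq hq hK hp hd) ?_)
    (not_dvd_MJ_long hφ hqq hq hK hp hpr hd (by decide)) (not_dvd_MJ_short hφ hqq hq hK hp hpr hd hB (by decide))
  refine Dvd.dvd.mul_right (Dvd.dvd.mul_left ?_ _) _
  rw [add_comm]
  exact hD

omit hφ hqq [Fact r.Prime] [CharP K r] in
theorem no_edge (a b : Fin 4) (ha : (a : ℕ) < 2) (hb : ¬ (b : ℕ) < 2) (hab : CoxeterMatrix.F₄ a b ≠ 2) :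
    a = 1 ∧ b = 2 := by
  have h : ∀ a b : Fin 4, (a = 1 ∧ b = 2) ∨ ¬ ((a : ℕ) < 2 ∧ ¬ (b : ℕ) < 2) ∨ CoxeterMatrix.F₄ a b = 2 := by
    intro a b
    fin_cases a <;> fin_cases b <;>
      first | exact Or.inl ⟨rfl, rfl⟩ | exact Or.inr (Or.inr rfl) | exact Or.inr (Or.inl (by decide))
  rcases h a b with h1 | h1 | h1
  · exact h1
  · exact absurd ⟨ha, hb⟩ h1
  · exact absurd h1 hab

theorem levE (hq : 1 < q) (hK : Fintype.card K = q ^ 2) (hp : p.Prime) (hpr : p ≠ r) (hd : ¬ p ∣ q ^ 2 - 1)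
    (hB : ¬ p ∣ q ^ 2 + 1) (hC : ¬ p ∣ q ^ 2 + q + 1) (hC' : ¬ p ∣ q ^ 4 + q ^ 2 + 1)
    (hG : p ∣ Nat.card ↥(twistedE6 K q)) : ∃ J, LevMin c4 isCartan (X φ q) J p ∧ 1 ∈ J ∧ 2 ∈ J := by
  have := finW
  have R := rgd c4 hφ hqq r
  obtain ⟨J, L⟩ := exists_levMin R (G1_eq_top c4 hφ hqq) hp hG
  refine ⟨J, L, ?_⟩
  have hpT := not_dvd_T4 hφ hqq hq hK hp hd
  have hq1 : ¬ p ∣ 1 + q := by
    intro h
    apply hd
    have h1 : q ^ 2 - 1 = (q + 1) * (q - 1) := by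
      have := Nat.sq_sub_sq q 1
      rwa [one_pow] at this
    rw [h1, add_comm q 1]
    exact Dvd.dvd.mul_right h _
  have h01 : ¬ p ∣ Nat.card (MJ c4 isCartan (X φ q) {0, 1}) := by
    refine not_dvd_MJ_of R (card01 hφ hqq hq hK) hp hpr hpT fun h => ?_
    rcases (Nat.Prime.dvd_mul hp).1 h with h1 | h1
    · exact hq1 h1
    · apply hC
      have : 1 + q + q ^ 2 = q ^ 2 + q + 1 := by ring
      rwa [this] at h1
  have h23 : ¬ p ∣ Nat.card (MJ c4 isCartan (X φ q) {2, 3}) := by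
    refine not_dvd_MJ_of R (card23 hφ hqq hq hK) hp hpr hpT fun h => ?_
    rcases (Nat.Prime.dvd_mul hp).1 h with h1 | h1
    · apply hB
      rwa [add_comm] at h1
    · apply hC'
      have : 1 + q ^ 2 + q ^ 4 = q ^ 4 + q ^ 2 + 1 := by ring
      rwa [this] at h1
  have e1 : ∃ a ∈ J, (a : ℕ) < 2 := by
    by_contra hcon
    push Not at hcon
    refine h23 (L.dvd.trans (Subgroup.card_dvd_of_le (MJ_mono fun a ha => ?_)))
    have h := hcon a ha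
    revert h
    exact (by decide : ∀ a : Fin 4, 2 ≤ (a : ℕ) → a ∈ ({2, 3} : Set (Fin 4))) a
  have e2 : ∃ a ∈ J, ¬ (a : ℕ) < 2 := by
    by_contra hcon
    push Not at hcon
    refine h01 (L.dvd.trans (Subgroup.card_dvd_of_le (MJ_mono fun a ha => ?_)))
    have h := hcon a ha
    revert h
    exact (by decide : ∀ a : Fin 4, (a : ℕ) < 2 → a ∈ ({0, 1} : Set (Fin 4))) a
  obtain ⟨a, ha, ha2⟩ := e1
  obtain ⟨b, hb, hb2⟩ := e2
  obtain ⟨a', ha', b', hb', hb'K, hab⟩ := L.conn {a | a ∈ J ∧ (a : ℕ) < 2} (fun x hx => hx.1) ⟨a, ha, ha2⟩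
    (fun h => hb2 (by
      have h1 : b ∈ {a | a ∈ J ∧ (a : ℕ) < 2} := by rw [h]; exact hb
      exact h1.2))
  obtain ⟨rfl, rfl⟩ := no_edge a' b' ha'.2 (fun h => hb'K ⟨hb', h⟩) hab
  exact ⟨ha'.1, hb'⟩

end Cfsg.Agent.H169.DP.TwE6
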