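import Cfsg.Agent.H169.DP.NodeE6Main

/-!
# The nodes of `²E₆(q)` as products of `p`-elements: `q = 2` and the final form (S2454; helper169 for helper346)
-/

set_option autoImplicit false
set_option linter.unusedSectionVars false
set_option maxHeartbeats 400000

namespace Cfsg.Agent.H169.DP.TwE6

open CoxeterSystem Cfsg.Agent.ChevalleyStructure.CoxeterGeom Cfsg.Agent.Tits.Roots Cfsg.Agent.Tits.Core
  Cfsg.Agent.Tits.RootComb Cfsg.Agent.Nodes.Comb Cfsg.Agent.Nodes.Reps Cfsg.Agent.Nodes.BNOf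
  Cfsg.Agent.Nodes.StabComb Cfsg.Agent.Nodes.OppDec Cfsg.Agent.Nodes.LeviDec
  Cfsg.Agent.Nodes.RGDTwGen Cfsg.Agent.Nodes.RGDChev Cfsg.Agent.Nodes.RGDFold
  Cfsg.Agent.Nodes.RGDFoldSL Cfsg.Agent.Nodes.RGDTwE6 Cfsg.Agent.Nodes.RGDTwTab Cfsg.Agent.Nodes.RGDTwCoordE6
  Cfsg.Agent.Nodes.RGDTwCoord Cfsg.Agent.Nodes.RGDTwComE6 Cfsg.Agent.Nodes.RGDTwActE6
  Cfsg.Agent.Nodes.RGDLib Cfsg.Agent.Nodes.SubComb Cfsg.Agent.Nodes.Sub Cfsg.Agent.Nodes.Bruhat
open Cfsg.Lie Cfsg.Agent.ChevalleyStructure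
  Cfsg.Agent.ChevalleyStructure.TwistedU Cfsg.Agent.ChevalleyStructure.TwistedFix
open Cfsg.Agent.OddHalf.NI.Mult (up lo nn dg Coord)
open Cfsg.Agent.Nodes.RGDTwNode.E6 (nodeOK eps_one rest)
open Cfsg.Agent.UGT.U2.FOne.TwESix (P hf coordP P_hS_mem range_P P_wS comm_T)
open Cfsg.Agent.H175.DP (dc)
open Cfsg.Agent.H346.DP
open Cfsg.Agent.H514.DP (PE IsPE)
open Cfsg.Agent.H53.HC (MJ)
open Cfsg.Agent.H35.ExcIdx (fE card_X_tw)

universe u

/-- the Coxeter system of type `F₄` -/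
local notation "c4" => CoxeterMatrix.toCoxeterSystem CoxeterMatrix.F₄

/-- the representatives of the classes of the nodes -/
local notation "rp6" => Cfsg.Agent.Nodes.RGDTwNode.E6.rep

variable {K : Type u} [Field K] [Fintype K] {q : ℕ} {φ : K →+* K} (hφ : ∀ x, φ x = x ^ q)
  (hqq : ∀ t : K, (t ^ q) ^ q = t) {r : ℕ} [Fact r.Prime] [CharP K r] {p : ℕ}

/-! ### `SL₂` in characteristic two -/

section sl

variable {F : Type*} [Field F]

theorem nn_conj (h2 : (2 : F) = 0) : (nn 1 : Matrix.SpecialLinearGroup (Fin 2) F) =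
    (up 1 * nn 1) * up 1 * (up 1 * nn 1)⁻¹ := by
  rw [eq_mul_inv_iff_mul_eq]
  have h3 : (-1 : F) = 1 := by linear_combination -h2
  have h4 : (1 : F) + 1 = 0 := by linear_combination h2
  apply Subtype.ext
  simp only [Matrix.SpecialLinearGroup.coe_mul, OddHalf.NI.Mult.coe_up, OddHalf.NI.Mult.coe_nn]
  ext i j
  fin_cases i <;> fin_cases j <;> simp [Matrix.mul_apply, Fin.sum_univ_two, h3, h4]

theorem cc_cube : (up 1 * nn 1 : Matrix.SpecialLinearGroup (Fin 2) F) ^ 3 = 1 := by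
  apply Subtype.ext
  rw [pow_succ, pow_succ, pow_one]
  simp only [Matrix.SpecialLinearGroup.coe_mul, OddHalf.NI.Mult.coe_up, OddHalf.NI.Mult.coe_nn]
  ext i j
  fin_cases i <;> fin_cases j <;> simp [Matrix.mul_apply, Fin.sum_univ_two]

theorem nn_sq_up (h2 : (2 : F) = 0) : (up 0 * nn 1 : Matrix.SpecialLinearGroup (Fin 2) F) =
    (up 1 * nn 1) * up 1 * (up 1 * nn 1)⁻¹ := by
  rw [OddHalf.NI.Mult.up_zero, one_mul]
  exact nn_conj h2

theorem cc_inv (h2 : (2 : F) = 0) : (up 1 * nn 1 : Matrix.SpecialLinearGroup (Fin 2) F) * up 1 * (up 1 * nn 1) =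
    up 1 := by
  have h3 : (-1 : F) = 1 := by linear_combination -h2
  have h4 : (1 : F) + 1 = 0 := by linear_combination h2
  apply Subtype.ext
  simp only [Matrix.SpecialLinearGroup.coe_mul, OddHalf.NI.Mult.coe_up, OddHalf.NI.Mult.coe_nn]
  ext i j
  fin_cases i <;> fin_cases j <;> simp [Matrix.mul_apply, Fin.sum_univ_two, h3, h4]

/-- the first factor -/
def xa (w : F) : Matrix.SpecialLinearGroup (Fin 2) F := ⟨!![w, 1; -1, 0], by rw [Matrix.det_fin_two_of]; ring⟩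

/-- the second factor -/
def xb (w : F) : Matrix.SpecialLinearGroup (Fin 2) F := ⟨!![0, -1; 1, 1 + w], by rw [Matrix.det_fin_two_of]; ring⟩

theorem xa_mul_xb (w : F) : xa w * xb w = up 1 := by
  apply Subtype.ext
  rw [Matrix.SpecialLinearGroup.coe_mul, OddHalf.NI.Mult.coe_up]
  show !![w, 1; -1, 0] * !![0, -1; 1, 1 + w] = _
  rw [Matrix.mul_fin_two]
  ext i j
  fin_cases i <;> fin_cases j <;> simp

theorem fin_two_ext {A B : Matrix (Fin 2) (Fin 2) F} (h0 : A 0 0 = B 0 0) (h1 : A 0 1 = B 0 1) (h2 : A 1 0 = B 1 0)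
    (h3 : A 1 1 = B 1 1) : A = B := by
  ext i j
  fin_cases i <;> fin_cases j
  · exact h0
  · exact h1
  · exact h2
  · exact h3

theorem xa_pow {w : F} (h2 : (2 : F) = 0) (hw : w ^ 2 + w + 1 = 0) : xa w ^ 5 = 1 := by
  apply Subtype.ext
  rw [pow_succ, pow_succ, pow_succ, pow_succ, pow_one]
  simp only [Matrix.SpecialLinearGroup.coe_mul]
  show !![w, 1; -1, 0] * !![w, 1; -1, 0] * !![w, 1; -1, 0] * !![w, 1; -1, 0] * !![w, 1; -1, 0] =
    (1 : Matrix (Fin 2) (Fin 2) F)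
  simp only [Matrix.mul_fin_two]
  rw [Matrix.one_fin_two]
  apply fin_two_ext
  · show _ = (1 : F)
    simp only [Matrix.of_apply, Matrix.cons_val', Matrix.cons_val_zero, Matrix.cons_val_one]
    linear_combination (5 - 4 * w - w ^ 2 + w ^ 3) * hw + (-3 + w) * h2
  · show _ = (0 : F)
    simp only [Matrix.of_apply, Matrix.cons_val', Matrix.cons_val_zero, Matrix.cons_val_one]
    linear_combination (-3 - w + w ^ 2) * hw + (2 + 2 * w) * h2
  · show _ = (0 : F)
    simp only [Matrix.of_apply, Matrix.cons_val', Matrix.cons_val_zero, Matrix.cons_val_one]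
    linear_combination (3 + w - w ^ 2) * hw + (-2 - 2 * w) * h2
  · show _ = (1 : F)
    simp only [Matrix.of_apply, Matrix.cons_val', Matrix.cons_val_zero, Matrix.cons_val_one]
    linear_combination (1 - w) * hw + (-1 + w) * h2

theorem xb_pow {w : F} (h2 : (2 : F) = 0) (hw : w ^ 2 + w + 1 = 0) : xb w ^ 5 = 1 := by
  apply Subtype.ext
  rw [pow_succ, pow_succ, pow_succ, pow_succ, pow_one]
  simp only [Matrix.SpecialLinearGroup.coe_mul]
  show !![0, -1; 1, 1 + w] * !![0, -1; 1, 1 + w] * !![0, -1; 1, 1 + w] * !![0, -1; 1, 1 + w] * !![0, -1; 1, 1 + w] =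
    (1 : Matrix (Fin 2) (Fin 2) F)
  simp only [Matrix.mul_fin_two]
  rw [Matrix.one_fin_two]
  apply fin_two_ext
  · show _ = (1 : F)
    simp only [Matrix.of_apply, Matrix.cons_val', Matrix.cons_val_zero, Matrix.cons_val_one]
    linear_combination (-2 - w) * hw + (1 + w) * h2
  · show _ = (0 : F)
    simp only [Matrix.of_apply, Matrix.cons_val', Matrix.cons_val_zero, Matrix.cons_val_one]
    linear_combination (1 - 3 * w - w ^ 2) * hw + (2 * w) * h2
  · show _ = (0 : F)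
    simp only [Matrix.of_apply, Matrix.cons_val', Matrix.cons_val_zero, Matrix.cons_val_one]
    linear_combination (-1 + 3 * w + w ^ 2) * hw + (-2 * w) * h2
  · show _ = (1 : F)
    simp only [Matrix.of_apply, Matrix.cons_val', Matrix.cons_val_zero, Matrix.cons_val_one]
    linear_combination (-7 + w + 4 * w ^ 2 + w ^ 3) * hw + (3 + w) * h2

/-- over the field with four elements the elements `up a` are products of two elements of order `5` -/
theorem pe_five (h2 : (2 : F) = 0) (h4 : Nat.card F = 4) (a : F) : PE 5 2 (up a : Matrix.SpecialLinearGroup (Fin 2) F) := by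
  classical
  have : Finite F := Nat.finite_of_card_ne_zero (by omega)
  have hu : ∀ b : F, b ≠ 0 → b ^ 3 = 1 := by
    intro b hb
    have h := unit_pow (Units.mk0 b hb)
    rw [h4] at h
    have h' := congrArg (fun x : Fˣ => (x : F)) h
    simpa using h'
  obtain ⟨w, hw0, hw1⟩ : ∃ w : F, w ≠ 0 ∧ w ≠ 1 := by
    obtain ⟨u, hu'⟩ := exists_sq_ne_one (K := F) (by omega)
    refine ⟨u, u.ne_zero, fun h => hu' ?_⟩
    have : u = 1 := Units.ext h
    rw [this, one_pow]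
  have hw : w ^ 2 + w + 1 = 0 := by
    have h := hu w hw0
    have h' : (w - 1) * (w ^ 2 + w + 1) = 0 := by linear_combination h
    exact (mul_eq_zero.1 h').resolve_left (sub_ne_zero.2 hw1)
  have h1 : PE 5 2 (up 1 : Matrix.SpecialLinearGroup (Fin 2) F) := by
    have ha : IsPE 5 (xa w) := ⟨1, by rw [pow_one]; exact xa_pow h2 hw⟩
    have hb : IsPE 5 (xb w) := ⟨1, by rw [pow_one]; exact xb_pow h2 hw⟩
    have h := ha.pe.mul hb.pe
    rwa [xa_mul_xb] at h
  by_cases ha : a = 0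
  · rw [ha, OddHalf.NI.Mult.up_zero]
    exact (Cfsg.Agent.H514.DP.isPE_one (p := 5)).pe.mono (by norm_num)
  · have h := OddHalf.NI.Mult.dg_mul_up (Units.mk0 (a ^ 2) (pow_ne_zero 2 ha)) (1 : F)
    have h' : ((Units.mk0 (a ^ 2) (pow_ne_zero 2 ha) : Fˣ) : F) ^ 2 * 1 = a := by
      rw [Units.val_mk0, mul_one]
      linear_combination a * hu a ha
    rw [h'] at h
    rw [← h]
    exact h1.conj _

end sl

/-! ### `q = 2` -/

section two

include hφ hqq

omit hφ hqq [Fact r.Prime] [CharP K r] in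
theorem two_zero (hq : q = 2) (hK : Fintype.card K = q ^ 2) (i : Fin 4) : (2 : Fn φ i) = 0 := by
  obtain ⟨r, hr'⟩ := CharP.exists K
  have : Fact r.Prime := ⟨CharP.char_is_prime K r⟩
  have h1 : 2 = r := eq_char (K := K) hK Nat.prime_two (by rw [hq])
  subst h1
  have hch : CharP (Fn φ i) 2 := inferInstance
  have h2 := CharP.cast_eq_zero (Fn φ i) 2
  exact_mod_cast h2

/-- the long nodes, `q = 2` -/
theorem long_two (hq : q = 2) (hK : Fintype.card K = q ^ 2) {a b : ℕ} (ha : ∀ y ∈ X φ q (-sr 2), PE p a y)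
    (hc : (∀ g ∈ X φ q (sr 1), PE p (2 * a) g) → PE p b (P hφ hqq 1 (up 1 * nn 1))) :
    NodeP (X φ q) p (max (2 * a) b) 1 := by
  have hc1 : Nat.card (Fn φ 1) = 2 := by rw [card_Fn hφ hqq (by omega) hK 1]; exact hq
  have C := coordP hφ hqq
  have hu : ∀ g ∈ X φ q (sr 1), PE p (2 * a) g := by
    intro g hg
    obtain ⟨x, hx, y, hy, rfl⟩ := exists_comm_one hφ hqq hK (by omega) hg
    rw [commutatorElement_def, two_mul]
    exact ((ha y hy).conj x).mul (ha y hy).inv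
  refine NodeP.of_nodes_two C (units_of_two hc1) fun t => ?_
  rcases two_elts hc1 t with rfl | rfl
  · rw [nn_sq_up (two_zero hq hK 1), map_mul, map_mul, map_inv]
    exact ((hu _ (C.mem_up 1 1)).conj _).mono (le_max_left _ _)
  · exact (hc hu).mono (le_max_right _ _)

/-- the element of order three of a long rank one group in a minimal Levi subgroup -/
theorem pe_cc {J : Set (Fin 4)} (L : LevMin c4 isCartan (X φ q) J p) (hq : q = 2) (hK : Fintype.card K = q ^ 2)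
    (hp : p.Prime) (hpr : p ≠ r) (hd : ¬ p ∣ q ^ 2 - 1) (h1 : 1 ∈ J) (h2 : 2 ∈ J) :
    PE p 4 (P hφ hqq 1 (up 1 * nn 1)) := by
  have := finW
  have R := rgd c4 hφ hqq r
  have C := coordP hφ hqq
  obtain ⟨Fl, hF⟩ := exists_filt hφ hqq (r := r)
  have hr2 : 2 = r := eq_char (K := K) hK Nat.prime_two (by rw [hq])
  set z := P hφ hqq 1 (up 1 * nn 1) with hz
  have hz3 : z ^ 3 = 1 := by rw [hz, ← map_pow, cc_cube, map_one]
  have hzr : ¬ r ∣ orderOf z := by
    intro h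
    have h3 := h.trans (orderOf_dvd_of_pow_eq_one hz3)
    rw [← hr2] at h3
    omega
  have hmem : ∀ g, P hφ hqq 1 g ∈ MJ c4 isCartan (X φ q) J := fun g => KK_le_MJ h1 (mem_KK C 1 g)
  obtain ⟨g, hg, hgz⟩ := nodes_noncentral R C 1 1
  obtain ⟨ζ, hζ, hζc, hPE⟩ := levi_gow R (hT4 hφ hqq) (hn4 hφ hqq) hF J L.ne L.conn
    (perf4 hφ hqq (by omega) hK (fun h => Or.inl h1) (fun _ => Or.inr (Or.inl h2))) hp hpr L.dvd L.min
    (not_dvd_T4 hφ hqq (by omega) hK hp hd) (hmem (up 1 * nn 1)) hzr ⟨g, KK_le_MJ h1 hg, hgz⟩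
  rw [← hz] at hPE
  set t := P hφ hqq 1 (up 1) with ht
  have e1 : z * t * z = t := by
    rw [hz, ht, ← map_mul, ← map_mul, cc_inv (two_zero hq hK 1)]
  have e2 : t * z * t⁻¹ = z⁻¹ := by
    have : t * z = z⁻¹ * t := by
      rw [eq_inv_mul_iff_mul_eq, ← mul_assoc, e1]
    rw [this]; group
  have e3 : ζ * t = t * ζ := hζc _ (hmem _)
  have e4 : ζ * z = z * ζ := hζc _ (hmem _)
  have e5 : t * (z * ζ) * t⁻¹ = z⁻¹ * ζ := by
    calc t * (z * ζ) * t⁻¹ = t * z * t⁻¹ * (t * ζ * t⁻¹) := by group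
      _ = z⁻¹ * ζ := by rw [e2, ← e3]; group
  have e6 : z = (z * ζ)⁻¹ * (t * (z * ζ) * t⁻¹) := by
    rw [e5]
    have e7 : z⁻¹ * ζ = ζ * z⁻¹ := by
      rw [inv_mul_eq_iff_eq_mul, ← mul_assoc, ← e4, mul_inv_cancel_right]
    calc z = z⁻¹ * z⁻¹ * z ^ 3 := by group
      _ = z⁻¹ * z⁻¹ := by rw [hz3, mul_one]
      _ = ζ⁻¹ * (ζ * z⁻¹) * z⁻¹ := by group
      _ = ζ⁻¹ * (z⁻¹ * ζ) * z⁻¹ := by rw [e7]
      _ = ζ⁻¹ * z⁻¹ * (ζ * z⁻¹) := by group
      _ = ζ⁻¹ * z⁻¹ * (z⁻¹ * ζ) := by rw [e7]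
      _ = _ := by group
  rw [e6]
  exact hPE.inv.mul (hPE.conj t)

/-- elements of the negative root group of the node `2` -/
theorem pe_neg {m : ℕ} (h : NodeP (X φ q) p m 2) : ∀ y ∈ X φ q (-sr 2), PE p m y := by
  obtain ⟨r, hr'⟩ := CharP.exists K
  have : Fact r.Prime := ⟨CharP.char_is_prime K r⟩
  have := finW
  have R := rgd c4 hφ hqq r
  have C := coordP hφ hqq
  intro y hy
  obtain ⟨b, rfl⟩ := C.exists_lo hy
  by_cases hcen : ∀ g', P hφ hqq 2 (lo b) * P hφ hqq 2 g' = P hφ hqq 2 g' * P hφ hqq 2 (lo b)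
  · obtain ⟨c, hc⟩ := scalar_of_central R C hcen
    have hb : b = 0 := by
      have h1 := congrFun (congrFun hc 1) 0
      simpa using h1
    rw [hb, OddHalf.NI.Mult.lo_zero, map_one]
    exact Cfsg.Agent.H514.DP.pe_one_elt m
  · push Not at hcen
    obtain ⟨g', hg'⟩ := hcen
    exact h _ (mem_KK C 2 _) ⟨_, mem_KK C 2 g', hg'⟩

end two

/-! ### The final form -/

omit hφ hqq [Fact r.Prime] [CharP K r] [Fintype K] in
theorem arith_C (hd : p ∣ q ^ 2 + q + 1) : p ∣ q ^ 4 + q ^ 2 + 1 := by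
  have h1 : q ≤ q ^ 2 := Nat.le_self_pow (by norm_num) q
  obtain ⟨x, hx⟩ := Nat.exists_eq_add_of_le h1
  have h2 : q ^ 4 + q ^ 2 + 1 = (q ^ 2 + q + 1) * (x + 1) := by
    have h3 : q ^ 4 = (q + x) * (q + x) := by rw [← hx]; ring
    rw [h3, hx]
    nlinarith [hx]
  rw [h2]
  exact Dvd.dvd.mul_right hd _

omit hφ hqq [Fact r.Prime] [CharP K r] [Fintype K] in
theorem arith_D (hp : p.Prime) (hC : ¬ p ∣ q ^ 2 + q + 1) (hd : p ∣ q ^ 4 + q ^ 2 + 1) :
    p ∣ q ^ 2 - q + 1 := by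
  have h1 : q ≤ q ^ 2 := Nat.le_self_pow (by norm_num) q
  obtain ⟨x, hx⟩ := Nat.exists_eq_add_of_le h1
  have h2 : q ^ 4 + q ^ 2 + 1 = (q ^ 2 + q + 1) * (x + 1) := by
    have h3 : q ^ 4 = (q + x) * (q + x) := by rw [← hx]; ring
    rw [h3, hx]
    nlinarith [hx]
  rw [h2] at hd
  have h3 := ((Nat.Prime.dvd_mul hp).1 hd).resolve_left hC
  have h4 : q ^ 2 - q = x := by omega
  rwa [h4]

include hφ hqq

/-- **The nodes of `²E₆(q)`.** -/
theorem nodeP_twE6 (hq : 1 < q) (hK : Fintype.card K = q ^ 2) (hp : p.Prime) (hpr : p ≠ r)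
    (hG : p ∣ Nat.card ↥(twistedE6 K q)) : NodeP (X φ q) p 8 1 ∧ NodeP (X φ q) p 4 2 := by
  have R := rgd c4 hφ hqq r
  have C := coordP hφ hqq
  by_cases hd : p ∣ q ^ 2 - 1
  · refine ⟨?_, (shortA hφ hqq hq hK hp hd).mono (by norm_num)⟩
    by_cases hd1 : p ∣ q - 1
    · exact (longA hφ hqq hq hK hp hd1).mono (by norm_num)
    · exact (longA' hφ hqq hq hK hp hpr hd1 hd).mono (by norm_num)
  by_cases hB : p ∣ q ^ 2 + 1
  · have L := levB hφ hqq hq hK hp hpr hd hB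
    refine ⟨?_, short_of hφ hqq L hq hK hp hpr hd (fun h => by simp at h) (Set.mem_singleton 2)⟩
    by_cases h3 : 3 ≤ q
    · exact (longB hφ hqq L h3 hK hp hpr hd).mono (by norm_num)
    · have h2 : q = 2 := by omega
      have hp5 : p = 5 := by
        rw [h2] at hB
        exact (Nat.prime_dvd_prime_iff_eq hp Nat.prime_five).1 hB
      subst hp5
      have hc2 : Nat.card (Fn φ 2) = 4 := by
        rw [card_Fn hφ hqq hq hK 2]
        show q ^ 2 = 4
        rw [h2]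
        norm_num
      have hy : ∀ y ∈ X φ q (-sr 2), PE 5 2 y := by
        intro y hy
        obtain ⟨b, rfl⟩ := C.exists_lo hy
        rw [OddHalf.NI.Mult.lo_eq_conj, map_mul, map_mul, map_inv]
        exact ((pe_five (two_zero (φ := φ) h2 hK 2) hc2 (-b)).map (P hφ hqq 2)).conj _
      refine (long_two hφ hqq h2 hK hy (b := 8) fun hu => ?_).mono (by norm_num)
      have e : P hφ hqq 1 (up 1 * nn 1) = P hφ hqq 1 (up 1) *
          (P hφ hqq 1 (up 1 * nn 1) * P hφ hqq 1 (up 1) * (P hφ hqq 1 (up 1 * nn 1))⁻¹) := by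
        rw [← map_mul, ← map_inv, ← map_mul, ← map_mul, ← nn_conj (two_zero h2 hK 1)]
      rw [e]
      exact (hu _ (C.mem_up 1 1)).mul ((hu _ (C.mem_up 1 1)).conj _)
  by_cases hC : p ∣ q ^ 2 + q + 1
  · have L := levC hφ hqq hq hK hp hpr hd hC
    have L' := levC' hφ hqq hq hK hp hpr hd hB (arith_C hC)
    refine ⟨?_, short_of hφ hqq L' hq hK hp hpr hd (fun h => by simp at h) (by simp)⟩
    by_cases h3 : 3 ≤ q
    · exact (long_of' hφ hqq L h3 hK hp hpr hd (by simp) (by simp)).mono (by norm_num)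
    · have h2 : q = 2 := by omega
      exact (long_of_two hφ hqq L h2 hK hp hpr hd (by simp) (by simp)).mono (by norm_num)
  by_cases hC' : p ∣ q ^ 4 + q ^ 2 + 1
  · have L' := levC' hφ hqq hq hK hp hpr hd hB hC'
    refine ⟨?_, short_of hφ hqq L' hq hK hp hpr hd (fun h => by simp at h) (by simp)⟩
    have hD := arith_D hp hC hC'
    have h3 : 3 ≤ q := by
      by_contra hlt
      have h2 : q = 2 := by omega
      rw [h2] at hD hd
      exact hd hD
    have hD' : p ∣ q ^ 3 + 1 := by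
      have h1 : q ≤ q ^ 2 := Nat.le_self_pow (by norm_num) q
      obtain ⟨x, hx⟩ := Nat.exists_eq_add_of_le h1
      have h4 : q ^ 2 - q = x := by omega
      have h5 : q ^ 3 + 1 = (q + 1) * (q ^ 2 - q + 1) := by
        rw [h4]
        have h6 : q ^ 3 = q * (q + x) := by rw [← hx]; ring
        rw [h6]
        nlinarith [hx]
      rw [h5]
      exact Dvd.dvd.mul_left hD _
    exact (long_of hφ hqq (levD hφ hqq hq hK hp hpr hd hB hD') h3 hK hp hpr hd (by simp) (by simp)).mono (by norm_num)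
  · obtain ⟨J, L, hJ1, hJ2⟩ := levE hφ hqq hq hK hp hpr hd hB hC hC' hG
    have hs := short_of hφ hqq L hq hK hp hpr hd (fun _ => hJ1) hJ2
    refine ⟨?_, hs⟩
    by_cases h3 : 3 ≤ q
    · exact (long_of hφ hqq L h3 hK hp hpr hd hJ1 hJ2).mono (by norm_num)
    · have h2 : q = 2 := by omega
      refine (long_two hφ hqq h2 hK (pe_neg hφ hqq hs) (b := 4) fun _ => ?_).mono (by norm_num)
      exact pe_cc hφ hqq L h2 hK hp hpr hd hJ1 hJ2

/-- **The nodes of `²E₆(q)`**, the form of the Coxeter trick. -/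
theorem nodes_twE6' (hq : 1 < q) (hK : Fintype.card K = q ^ 2) (hp : p.Prime) (hpr : p ≠ r)
    (hG : p ∣ Nat.card ↥(twistedE6 K q)) : ∃ m : Fin 4 → ℕ, m 0 + m 1 + m 2 + m 3 ≤ 35 ∧
      ∀ (i : Fin 4) (t : Fx φ ((rest i).length + 1)), PE p (m i) (P hφ hqq i (up t * nn 1)) := by
  have := finW
  have R := rgd c4 hφ hqq r
  have C := coordP hφ hqq
  obtain ⟨h1, h2⟩ := nodeP_twE6 hφ hqq hq hK hp hpr hG
  refine ⟨![8, 8, 4, 4], by decide, fun i t => ?_⟩
  fin_cases i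
  · exact (adj4 hφ hqq (i := 1) (j := 0) rfl h1).nodes R C t
  · exact h1.nodes R C t
  · exact h2.nodes R C t
  · exact (adj4 hφ hqq (i := 2) (j := 3) rfl h2).nodes R C t

end Cfsg.Agent.H169.DP.TwE6
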