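import Cfsg.Agent.H169.DP.Act
import Cfsg.Agent.H346.DP.Lev
import Cfsg.Agent.H346.DP.ChevNode

/-!
# Rank one subgroups and minimal sets of nodes: more general lemmas (S2454; helper169 for helper346)

* `scalar_of_central` : the centre of the rank one group comes from scalar matrices;
* `dvd_MJ_singleton` : `p` odd, `p ∣ |SL₂(F i)|` implies `p ∣ |MJ {i}|`;
* `levMin_singleton`, `levMin_pair`;
* `LevMin.nodeP'` : the version of `LevMin.nodeP` where `p` does not divide `|T ∩ MJ J|`.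
-/

set_option autoImplicit false
set_option linter.unusedSectionVars false

namespace Cfsg.Agent.H169.DP

open CoxeterSystem Cfsg.Agent.ChevalleyStructure.CoxeterGeom Cfsg.Agent.Tits.Roots Cfsg.Agent.Tits.Core
  Cfsg.Agent.Tits.RootComb Cfsg.Agent.Nodes.Comb Cfsg.Agent.Nodes.Reps Cfsg.Agent.Nodes.BNOf
  Cfsg.Agent.Nodes.StabComb Cfsg.Agent.Nodes.RGDLib Cfsg.Agent.Nodes.Bruhat Cfsg.Agent.Nodes.OppDec
open Cfsg.Agent.Tits.Exchange hiding nn
open Cfsg.Agent.OddHalf.NI.Mult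
open Cfsg.Agent.H514.DP (PE IsPE)
open Cfsg.Agent.H53.HC (MJ)
open Cfsg.Agent.H175.DP (dc dcHom coe_dc)
open Cfsg.Agent.H346.DP
open Cfsg.Agent.KFacts.RgdBorelTits (Filt)
open Matrix

variable {I W Y : Type*} [Fintype I] [DecidableEq I] [Group W] [Group Y] {M : CoxeterMatrix I}
  {cs : CoxeterSystem M W} {A : I → I → ℤ} {h : IsCartan M A} {r : ℕ} {T : Subgroup Y} {n : I → Y}
  {X : (I → ℤ) → Subgroup Y} {F : I → Type*} [∀ i, Field (F i)]
  {s : ∀ i, Matrix.SpecialLinearGroup (Fin 2) (F i) →* Y}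

theorem dc_up_nn {K : Type*} [Field K] (δ : Kˣ) (t : K) : dc δ (up t * nn 1) = up ((δ : K) * t) * nn δ := by
  apply Subtype.ext
  rw [coe_dc, coe_up_nn, Matrix.SpecialLinearGroup.coe_mul, coe_up, coe_nn]
  ext i j
  fin_cases i <;> fin_cases j <;> simp [Matrix.mul_apply, Fin.sum_univ_two]
  field_simp

theorem scalar_of_central [Finite W] (R : RGD cs h r T n X) (C : Coord X F s) {i : I}
    {g : Matrix.SpecialLinearGroup (Fin 2) (F i)} (hg : ∀ g', s i g * s i g' = s i g' * s i g) :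
    ∃ c : F i, (g : Matrix (Fin 2) (Fin 2) (F i)) = c • (1 : Matrix (Fin 2) (Fin 2) (F i)) := by
  by_contra hcon
  push Not at hcon
  obtain ⟨δ, k, e⟩ := H175.DP.exists_conj
    (up (-(g : Matrix (Fin 2) (Fin 2) (F i)).trace) * nn 1) g (up_nn_nonscalar _) hcon
    (by rw [coe_up_nn, Matrix.trace_fin_two_of]; ring)
  rw [dc_up_nn] at e
  generalize (δ : F i) * (-(g : Matrix (Fin 2) (Fin 2) (F i)).trace) = a at e
  have h1 : ∀ g', s i (up a * nn δ) * s i g' * (s i (up a * nn δ))⁻¹ = s i g' := by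
    intro g'
    have h2 := hg (k * g' * k⁻¹)
    rw [e] at h2
    simp only [map_mul, map_inv] at h2 ⊢
    have h3 : s i (up a) * s i (nn δ) * s i g' = s i g' * (s i (up a) * s i (nn δ)) := by
      calc s i (up a) * s i (nn δ) * s i g' =
          (s i k)⁻¹ * (s i k * (s i (up a) * s i (nn δ)) * (s i k)⁻¹ * (s i k * s i g' * (s i k)⁻¹)) * s i k := by group
        _ = (s i k)⁻¹ * (s i k * s i g' * (s i k)⁻¹ * (s i k * (s i (up a) * s i (nn δ)) * (s i k)⁻¹)) * s i k := by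
          rw [h2]
        _ = _ := by group
    rw [h3]
    group
  have h2 : cj (s i (up a * nn δ)) (X (sr i)) = X (sr i) := by
    apply le_antisymm
    · rintro _ ⟨x, hx, rfl⟩
      obtain ⟨b, rfl⟩ := C.exists_up hx
      have := h1 (up b)
      change s i (up a * nn δ) * s i (up b) * (s i (up a * nn δ))⁻¹ ∈ _
      rw [this]
      exact C.mem_up i b
    · intro x hx
      obtain ⟨b, rfl⟩ := C.exists_up hx
      refine ⟨s i (up b), C.mem_up i b, h1 (up b)⟩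
  rw [map_mul, cj_mul, C.cj_nn i δ] at h2
  have h3 : cj (s i (up a)) (X (sr i)) = X (sr i) := cj_eq_of_mem (C.mem_up i a)
  have h4 : X (-sr i) = X (sr i) := 
    Subgroup.map_injective (MulAut.conj (s i (up a))).injective (h2.trans h3.symm)
  exact X_ne_neg R i h4.symm

theorem pm_one_of_scalar {K : Type*} [Field K] {g : Matrix.SpecialLinearGroup (Fin 2) K} {c : K}
    (hc : (g : Matrix (Fin 2) (Fin 2) K) = c • (1 : Matrix (Fin 2) (Fin 2) K)) :
    ∃ e : Kˣ, e ^ 2 = 1 ∧ g = dg e := by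
  have h1 : c * c = 1 := by
    have h2 := g.2
    rw [hc, Matrix.det_smul, Matrix.det_one, mul_one, Fintype.card_fin, sq] at h2
    exact h2
  refine ⟨⟨c, c, h1, h1⟩, Units.ext (by rw [Units.val_pow_eq_pow_val, Units.val_one, sq]; exact h1), ?_⟩
  apply Subtype.ext
  rw [hc, coe_dg]
  ext i j
  fin_cases i <;> fin_cases j <;> simp

/-- the centre of the rank one group -/
theorem central_MJ_singleton [Finite W] (R : RGD cs h r T n X) (C : Coord X F s) {i : I} {ζ : Y}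
    (hζ : ζ ∈ MJ cs h X {i}) (hc : ∀ g ∈ MJ cs h X {i}, ζ * g = g * ζ) :
    ∃ e : (F i)ˣ, e ^ 2 = 1 ∧ ζ = s i (dg e) := by
  rw [MJ_singleton] at hζ
  obtain ⟨g, rfl⟩ := C.KK_le_range i hζ
  obtain ⟨c, hg⟩ := scalar_of_central R C (g := g) fun g' => hc _ (by rw [MJ_singleton]; exact mem_KK C i g')
  obtain ⟨e, he, rfl⟩ := pm_one_of_scalar hg
  exact ⟨e, he, rfl⟩

theorem dvd_MJ_singleton [Finite W] [Finite Y] (R : RGD cs h r T n X) (C : Coord X F s) {i : I} [Finite (F i)] {p : ℕ}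
    (hp : p.Prime) (hp2 : p ≠ 2) (hd : p ∣ Nat.card (F i) * (Nat.card (F i) ^ 2 - 1)) :
    p ∣ Nat.card (MJ cs h X {i}) := by
  have : Fact p.Prime := ⟨hp⟩
  rw [← card_SL2 (K := F i)] at hd
  obtain ⟨x, hx⟩ := exists_prime_orderOf_dvd_card' p hd
  have h1 : s i x ≠ 1 := by
    intro h1
    obtain ⟨c, hg⟩ := scalar_of_central R C (g := x) fun g' => by rw [h1, one_mul, mul_one]
    obtain ⟨e, he, rfl⟩ := pm_one_of_scalar hg
    have h2 : (dg e : Matrix.SpecialLinearGroup (Fin 2) (F i)) ^ 2 = 1 := by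
      change (dgHom e) ^ 2 = 1
      rw [← map_pow, he, map_one]
    have h3 := orderOf_dvd_of_pow_eq_one h2
    rw [hx] at h3
    exact hp2 ((Nat.prime_dvd_prime_iff_eq hp Nat.prime_two).1 h3)
  have h2 : orderOf (s i x) = p := by
    refine orderOf_eq_prime ?_ h1
    rw [← map_pow, ← hx, pow_orderOf_eq_one, map_one]
  have h3 : s i x ∈ MJ cs h X {i} := by rw [MJ_singleton]; exact mem_KK C i x
  have h4 := orderOf_dvd_natCard (⟨s i x, h3⟩ : MJ cs h X {i})
  rwa [Subgroup.orderOf_mk, h2] at h4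

theorem levMin_singleton {i : I} {p : ℕ} (hp : p.Prime) (hd : p ∣ Nat.card (MJ cs h X {i})) :
    LevMin cs h X {i} p where
  ne := ⟨i, rfl⟩
  conn K hK hne hne' := by
    exfalso
    apply hne'
    obtain ⟨k, hk⟩ := hne
    refine Set.Subset.antisymm hK ?_
    rw [Set.singleton_subset_iff, ← Set.mem_singleton_iff.1 (hK hk)]
    exact hk
  dvd := hd
  min K hK := by
    rw [Set.ssubset_singleton_iff.1 hK, H175.DP.MJ_empty, Subgroup.card_bot]
    exact fun h1 => hp.one_lt.ne' (Nat.dvd_one.1 h1)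

theorem levMin_pair {i j : I} (hM : M i j ≠ 2) {p : ℕ} (hp : p.Prime) (hd : p ∣ Nat.card (MJ cs h X {i, j}))
    (hi : ¬ p ∣ Nat.card (MJ cs h X {i})) (hj : ¬ p ∣ Nat.card (MJ cs h X {j})) :
    LevMin cs h X {i, j} p := by
  have key : ∀ K : Set I, K ⊂ {i, j} → K ⊆ {i} ∨ K ⊆ {j} := by
    intro K hK
    by_contra hcon
    push Not at hcon
    apply hK.2
    obtain ⟨h1, h2⟩ := hcon
    rw [Set.not_subset] at h1 h2
    obtain ⟨a, ha, ha'⟩ := h1
    obtain ⟨b, hb, hb'⟩ := h2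
    have e1 : a = j := (hK.1 ha).resolve_left ha'
    have e2 : b = i := (hK.1 hb).resolve_right hb'
    subst e1 e2
    rintro x (rfl | rfl)
    · exact hb
    · exact ha
  refine ⟨⟨i, Or.inl rfl⟩, fun K hK hne hne' => ?_, hd, fun K hK hdK => ?_⟩
  · rcases key K (Set.ssubset_iff_subset_ne.2 ⟨hK, hne'⟩) with h1 | h1
    · rcases Set.subset_singleton_iff_eq.1 h1 with h2 | h2
      · exact absurd h2 hne.ne_empty
      · refine ⟨i, by rw [h2]; rfl, j, Or.inr rfl, fun h3 => hne' ?_, hM⟩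
        rw [h2] at h3
        rw [h2, Set.mem_singleton_iff.1 h3]
        simp
    · rcases Set.subset_singleton_iff_eq.1 h1 with h2 | h2
      · exact absurd h2 hne.ne_empty
      · refine ⟨j, by rw [h2]; rfl, i, Or.inl rfl, fun h3 => hne' ?_, by rw [M.symmetric]; exact hM⟩
        rw [h2] at h3
        rw [h2, Set.mem_singleton_iff.1 h3]
        simp
  · rcases key K hK with h1 | h1
    · exact hi (hdK.trans (Subgroup.card_dvd_of_le (MJ_mono h1)))
    · exact hj (hdK.trans (Subgroup.card_dvd_of_le (MJ_mono h1)))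

/-- **Gow's theorem in a minimal Levi subgroup**, `p` not dividing the order of its torus. -/
theorem LevMin.nodeP' [Finite W] [Finite Y] [Fact r.Prime] {R : RGD cs h r T n X}
    (hT : ∀ a ∈ T, ∀ b ∈ T, a * b = b * a) (hn : ∀ i, n i ∈ X (sr i) ⊔ X (-sr i))
    {Fl : (I → ℤ) → ℝ → Subgroup Y} (hF : Filt R Fl) (C : Coord X F s) {J : Set I} {p : ℕ}
    (L : LevMin cs h X J p) (hperf : ⁅MJ cs h X J, MJ cs h X J⁆ = MJ cs h X J) (hp : p.Prime) (hpr : p ≠ r)
    (hpT : ¬ p ∣ Nat.card ↥(T.subgroupOf (MJ cs h X J))) {i : I} (hi : i ∈ J) {z : Y} (hz : z ∈ MJ cs h X J)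
    (hzr : ¬ r ∣ orderOf z) {μ : (F i)ˣ} (hμ : μ ≠ 1) (hza : ∀ g, z * s i g * z⁻¹ = s i (dc μ g)) :
    NodeP X p 4 i := by
  obtain ⟨g, hg⟩ := act_noncentral R C hμ hza
  obtain ⟨ζ, hζ, hζc, hPE⟩ := levi_gow' R hT hn hF J L.ne L.conn hperf hp hpr L.dvd L.min hpT hz hzr
    ⟨s i g, KK_le_MJ hi (mem_KK C i g), hg⟩
  refine NodeP.of_act C hμ (z := z * ζ) (m := 2) (fun g => ?_) hPE
  have h1 := hζc (s i g) (KK_le_MJ hi (mem_KK C i g))
  calc z * ζ * s i g * (z * ζ)⁻¹ = z * (ζ * s i g) * ζ⁻¹ * z⁻¹ := by group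
    _ = z * s i g * z⁻¹ := by rw [h1]; group
    _ = _ := hza g

/-- the torus of the rank one group -/
theorem not_dvd_T_singleton [Finite W] [Finite Y] (R : RGD cs h r T n X) (C : Coord X F s) {i : I} [Finite (F i)]
    {p : ℕ} (hp : p.Prime) (hd : ¬ p ∣ Nat.card (F i) - 1) :
    ¬ p ∣ Nat.card ↥(T.subgroupOf (MJ cs h X {i})) := by
  intro h1
  have : Fact p.Prime := ⟨hp⟩
  obtain ⟨x, hx⟩ := exists_prime_orderOf_dvd_card' p h1
  apply hd
  rw [← hx]
  apply orderOf_dvd_of_pow_eq_one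
  have h2 : ((x : ↥(MJ cs h X {i})) : Y) ∈ T ⊓ KK X (sr i) := by
    refine ⟨Subgroup.mem_subgroupOf.1 x.2, ?_⟩
    exact (MJ_singleton (cs := cs) (h := h) (X := X) i).le (x : ↥(MJ cs h X {i})).2
  rw [T_inf_KK R C i] at h2
  obtain ⟨u, hu⟩ := h2
  apply Subtype.ext
  apply Subtype.ext
  rw [Subgroup.coe_pow, Subgroup.coe_pow, ← hu, ← map_pow, unit_pow, map_one]
  rfl

/-- `p` divides `|MJ J|` if and only if it divides the index of `B` in `PJ J`. -/
theorem not_dvd_MJ_of [Finite W] [Finite Y] [Fact r.Prime] (R : RGD cs h r T n X) {J : Set I} {a : ℕ}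
    (hc : Nat.card ↥(Nodes.LeviDec.PJ cs h T X J) = a * Nat.card ↥(RGD.B cs h T X)) {p : ℕ} (hp : p.Prime)
    (hpr : p ≠ r) (hpT : ¬ p ∣ Nat.card T) (ha : ¬ p ∣ a) : ¬ p ∣ Nat.card (MJ cs h X J) := by
  intro hd
  have h1 : MJ cs h X J ≤ Nodes.LeviDec.PJ cs h T X J :=
    (H53.HC.MJ_le_LJ (T := T) J).trans Nodes.LeviDec.LJ_le_PJ
  have h2 := hd.trans (Subgroup.card_dvd_of_le h1)
  rw [hc] at h2
  rcases (Nat.Prime.dvd_mul hp).1 h2 with h3 | h3
  · exact ha h3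
  · exact not_dvd_card_B R hp hpr hpT h3

theorem dvd_MJ_of [Finite W] [Finite Y] [Fact r.Prime] (R : RGD cs h r T n X) {J : Set I} {a : ℕ}
    (hc : Nat.card ↥(Nodes.LeviDec.PJ cs h T X J) = a * Nat.card ↥(RGD.B cs h T X)) {p : ℕ} (hp : p.Prime)
    (hpr : p ≠ r) (hpT : ¬ p ∣ Nat.card T) (ha : p ∣ a) : p ∣ Nat.card (MJ cs h X J) := by
  by_contra hd
  refine not_dvd_card_PJ R hp hpr hpT hd ?_
  rw [hc]
  exact Dvd.dvd.mul_right ha _

end Cfsg.Agent.H169.DP
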